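import Cfsg.Agent.H461.QF.Core
import Cfsg.Agent.H231.QF.Defs
import Cfsg.Agent.H259.U6.Main
import Cfsg.Agent.KFacts.Mult.TwESixTwo

/-!
# S2491, row F4 = `²E₆(2)` : all elements over `P_1 ∖ V_1` are commutators (box P1, helper461)
-/

set_option autoImplicit false
set_option linter.unusedSectionVars false

namespace Cfsg.Agent.H461.QF

open CoxeterSystem Cfsg.Agent.ChevalleyStructure.CoxeterGeom Cfsg.Agent.Tits.Roots Cfsg.Agent.Tits.Core
  Cfsg.Agent.Nodes Cfsg.Agent.Nodes.Reps Cfsg.Agent.Nodes.BNOf Cfsg.Agent.Nodes.RGDLib Cfsg.Agent.Nodes.Bruhat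
  Cfsg.Agent.Nodes.OppDec Cfsg.Agent.Nodes.LeviDec Cfsg.Agent.Nodes.StabComb
open Cfsg.Lie Subgroup
open Cfsg.Agent.H51.Mult (PCE)
open Cfsg.Agent.H777.Ore (AllC IsC)
open Cfsg.Agent.H231.QF
open Cfsg.Agent.Nodes.RGDLift (lft mem_lft isPGroup_lft)
open Cfsg.Agent.SporadicStructure.UnitTwo
open scoped commutatorElement

universe u v

/-! ## K-side -/

section K

variable {F : Type u} [Field F] [Fintype F] (hF : Fintype.card F = 4) {φ : F →+* F} (hφ : ∀ t, φ t = t ^ 2)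

include hF in
theorem charP_two : CharP F 2 := by
  obtain ⟨p, hp⟩ := CharP.exists F
  have : Fact p.Prime := ⟨CharP.char_is_prime F p⟩
  obtain ⟨n, hn, h1⟩ := FiniteField.card F p
  have h2 : p ∣ 2 ^ 2 := by
    have h3 : p ∣ p ^ (n : ℕ) := dvd_pow_self p n.2.ne'
    rw [← h1, hF] at h3
    exact h3
  have h4 : p = 2 := (Nat.prime_dvd_prime_iff_eq hn Nat.prime_two).1 (hn.dvd_of_dvd_pow h2)
  rwa [h4] at hp

include hF in
theorem frob_frob (t : F) : (t ^ 2) ^ 2 = t := by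
  have := FiniteField.pow_card t
  rw [hF] at this
  rw [← pow_mul]
  exact this

theorem cls_th : ∀ k < chevE6.nroots, (Cfsg.Agent.Nodes.RGDFold.V chevE6 RGDTwE6.J k = th ↔ k ∈ [71]) := by
  decide +kernel

theorem eps_th : Cfsg.Agent.ChevalleyStructure.GraphSymm.symmE6.ε (⟨71, by decide +kernel⟩ : Fin chevE6.nroots) = 1 := by
  decide +kernel

theorem rho_th : (Cfsg.Agent.ChevalleyStructure.TwE6Basic.rho (71 : Fin 72)).val = 71 := by decide +kernel

include hφ in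
/-- the root group of the highest root has order at most two -/
theorem X_th {g h : KK F} (hg : g ∈ X φ th) (hh : h ∈ X φ th) (g1 : g ≠ 1) (h1 : h ≠ 1) : g = h := by
  have key : ∀ g : KK F, g ∈ X φ th → g ≠ 1 →
      (g : GL chevE6.Idx F) = Cfsg.Agent.ChevalleyStructure.TwE6Basic.x 71 1 := by
    intro g hg g1
    have h1 : (g : GL chevE6.Idx F) ∈ Cfsg.Agent.Nodes.RGDFold.R chevE6 RGDTwE6.hp F RGDTwE6.J
        (Cfsg.Agent.ChevalleyStructure.TwE6Basic.sg φ) th := hg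
    rw [Cfsg.Agent.Nodes.RGDFold.R_eq cls_th (by decide +kernel), RGDTwE6.rspan_eq, RGDTwE6.fixS_eq] at h1
    obtain ⟨t, ht⟩ := Cfsg.Agent.ChevalleyStructure.TwE6BN.rs_single (r := 71) (K := F) h1.1
    have h2 := Cfsg.Agent.ChevalleyStructure.TwE6Basic.mem_fix.1 h1.2
    have h3 := Cfsg.Agent.ChevalleyStructure.TwE6Basic.sg_x φ (71 : Fin 72) t
    have h4 : Cfsg.Agent.ChevalleyStructure.GraphSymm.symmE6.ε (71 : Fin 72) = 1 := eps_th
    rw [rho_th, h4, Int.cast_one, one_mul] at h3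
    rw [ht] at h2
    have h5 : φ t = t := Cfsg.Agent.ChevalleyStructure.TwE6Basic.x_injective (r := 71) (by norm_num) (h3.symm.trans h2)
    rw [hφ] at h5
    have h6 : t * (t - 1) = 0 := by linear_combination h5
    rcases mul_eq_zero.1 h6 with h7 | h7
    · exfalso
      apply g1
      apply Subtype.ext
      rw [ht, h7]
      exact Cfsg.Agent.ChevalleyStructure.TwE6Basic.x_zero 71
    · rw [ht, sub_eq_zero.1 h7]
  exact Subtype.ext ((key g hg g1).trans (key h hh h1).symm)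

theorem isRoot_th : IsRoot cs RGDTwE6.isCartan th :=
  (RGDTwE6.foldData.isRoot_iff (cs := cs) (h := RGDTwE6.isCartan) RGDTwE6.hp.checked
    (fun i _ hr => Cfsg.Agent.Nodes.RGDFold.wp_lt RGDTwE6.hp (RGDTwE6.J i) hr) th).2
      ⟨71, by decide +kernel, (cls_th 71 (by decide +kernel)).2 (List.mem_singleton.2 rfl)⟩

theorem X_le_V {g : KK F} (hg : g ∈ X φ th) : g ∈ V φ j1 :=
  (RGD.le_Sup (X := X φ) (S := NotJ cs RGDTwE6.isCartan j1)
    ⟨isRoot_th, by intro i; fin_cases i <;> decide, 0, fun h => h rfl, by decide⟩ : X φ th ≤ V φ j1) hg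

include hF hφ in
theorem rgd : RGD cs RGDTwE6.isCartan 2 (RGDTwE6.T F 2) (RGDTwE6.nn hφ) (X φ) := by
  have := charP_two hF
  exact RGDTwE6.rgd cs hφ (frob_frob hF) 2

include hF hφ in
theorem conj_V {g v : KK F} (hg : g ∈ P φ j1) (hv : v ∈ V φ j1) : g * v * g⁻¹ ∈ V φ j1 :=
  (Subgroup.mem_normalizer_iff.1 (PJ_le_normalizer_VJ (rgd hF hφ) j1 hg) v).1 hv

include hF hφ in
theorem exists_dec {g : KK F} (hg : g ∈ P φ j1) : ∃ v ∈ V φ j1, ∃ l ∈ Lv φ j1, g = v * l := by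
  obtain ⟨l, hl, v, hv, rfl⟩ := (mem_PJ (rgd hF hφ)).1 hg
  exact ⟨l * v * l⁻¹, conj_V hF hφ (LJ_le_PJ hl) hv, l, hl, by group⟩

end K

/-! ## L-side -/

section Ker

variable {F : Type u} [Field F] [Fintype F] (hF : Fintype.card F = 4) {L : Type v} [Group L] [Finite L] {π : L →* KK F}
  (hπ : PCE π) (hk : Nat.card π.ker = 12)

include hF hπ hk

theorem ker_sq (z : L) (hz : π z = 1) (h2 : ∃ k : ℕ, z ^ 2 ^ k = 1) : z * z = 1 := by
  have hpow : ∀ x : L, π x = 1 → x ^ 12 = 1 := by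
    intro x hx
    have h1 : (⟨x, hx⟩ : π.ker) ^ Nat.card π.ker = 1 := pow_card_eq_one'
    rw [hk] at h1
    exact congrArg Subtype.val h1
  let N : Subgroup L :=
    { carrier := {x | π x = 1 ∧ x ^ 3 = 1}
      one_mem' := ⟨map_one π, one_pow 3⟩
      mul_mem' := by
        rintro x y ⟨hx, hx3⟩ ⟨hy, hy3⟩
        have hc : Commute x y := hπ.comm hx y
        exact ⟨by rw [map_mul, hx, hy, one_mul], by rw [hc.mul_pow, hx3, hy3, one_mul]⟩
      inv_mem' := by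
        rintro x ⟨hx, hx3⟩
        exact ⟨by rw [map_inv, hx, inv_one], by rw [inv_pow, hx3, inv_one]⟩ }
  obtain ⟨L', _, q, ρ, hq, hqk, hρ, hP⟩ := hπ.quot (N := N) fun x hx => hx.1
  have : Finite L' := Finite.of_surjective q hq
  have hp : IsPGroup 2 ρ.ker := by
    rintro ⟨y, hy⟩
    obtain ⟨x, rfl⟩ := hq y
    have h1 : π x = 1 := (hρ x).symm.trans hy
    have h3 : x ^ 4 ∈ N := ⟨by rw [map_pow, h1, one_pow], by rw [← pow_mul]; exact hpow x h1⟩
    refine ⟨2, Subtype.ext ?_⟩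
    show q x ^ 2 ^ 2 = 1
    rw [← map_pow]
    rw [← hqk] at h3
    exact h3
  have h3 := (Cfsg.Agent.KFacts.Mult.TwESixTwo.ker F hF hP.perf hP.surj hP.cen hp).1 (q z) (by rw [hρ, hz])
  rw [← map_mul, ← MonoidHom.mem_ker, hqk] at h3
  obtain ⟨k, hk2⟩ := h2
  have h4 : (z * z) ^ 2 ^ k = 1 := by rw [(Commute.refl z).mul_pow, hk2, one_mul]
  have h5 : orderOf (z * z) ∣ 1 := by
    rw [← (show Nat.Coprime 3 (2 ^ k) from Nat.Coprime.pow_right k (by norm_num))]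
    exact Nat.dvd_gcd (orderOf_dvd_of_pow_eq_one h3.2) (orderOf_dvd_of_pow_eq_one h4)
  exact orderOf_eq_one_iff.1 (Nat.dvd_one.1 h5)

omit hF hπ in
theorem card_Z {Z : Subgroup L} (hZ : ∀ z ∈ Z, π z = 1 ∧ z * z = 1) : Nat.card Z ∣ 4 := by
  have h1 : Nat.card Z ∣ 4 * 3 := by
    have := Subgroup.card_dvd_of_le (show Z ≤ π.ker from fun z hz => (hZ z hz).1)
    rw [hk] at this
    exact this
  have h2 : IsPGroup 2 Z := by
    rintro ⟨z, hz⟩
    exact ⟨1, Subtype.ext (by rw [pow_one]; exact (pow_two z).trans (hZ z hz).2)⟩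
  obtain ⟨n, hn⟩ := IsPGroup.iff_card.1 h2
  refine Nat.Coprime.dvd_of_dvd_mul_right ?_ h1
  rw [hn]
  exact Nat.Coprime.pow_left n (by norm_num)

end Ker

section P1

variable {F : Type u} [Field F] [Fintype F] (hF : Fintype.card F = 4) {φ : F →+* F} (hφ : ∀ t, φ t = t ^ 2)
  {L : Type v} [Group L] [Finite L] {π : L →* KK F} (hπ : PCE π) (hk : Nat.card π.ker = 12)

include hF hφ hπ hk

/-- **P1**, from the boxes K4 - K7, TSTAR, MATCH3, PERF, H1. -/
theorem p1_of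
    (f : SU 6 F 2 →* KK F) (hf : f.range = Lv φ j1) (hfk : f.ker = center (SU 6 F 2))
    (K5 : ∀ (hF2 : Fintype.card F = 2 ^ 2) (w : Fin 6 → F) (hw : hermForm 6 F 2 w w = 0), w ≠ 0 → ∀ v ∈ V φ j1,
      Cfsg.Agent.H231.QF.Out φ j4 (v * f (Cfsg.Agent.SporadicStructure.UnitTwo.T hF2 w hw)))
    (K6 : (∀ x ∈ V φ j1, ∀ y ∈ V φ j1, x * y * x⁻¹ * y⁻¹ ∈ X φ th) ∧ (∀ x ∈ V φ j1, x * x ∈ X φ th) ∧
      (∀ x ∈ V φ j1, (∀ y ∈ V φ j1, x * y = y * x) → x ∈ X φ th) ∧ Nat.card (V φ j1) = 2 ^ 21)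
    (K7 : ∀ h : SU 6 F 2, h ∉ center (SU 6 F 2) →
      32 * Nat.card {x : KK F // x ∈ V φ j1 ∧ f h * x * (f h)⁻¹ * x⁻¹ ∈ X φ th} ≤ Nat.card (V φ j1))
    (TSTAR : ∃ t : L, π t ∈ X φ th ∧ π t ≠ 1 ∧ t * t = 1 ∧ (∀ g, π g ∈ P φ j1 → g * t = t * g) ∧
      (∀ x ∈ lft 2 π (V φ j1), ∀ y ∈ lft 2 π (V φ j1), x * y = y * x ∨ x * y = y * x * t))
    (MATCH3 : ∀ (g : L) (v : KK F),
      v ∈ V φ j1 → ∀ h : SU 6 F 2, π g = v * f h → ∃ s ∈ center (SU 6 F 2), ∀ (a b : SU 6 F 2) (a' b' : L),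
        h * s = a * b * a⁻¹ * b⁻¹ → π a' = f a → π b' = f b → g * (a' * b' * a'⁻¹ * b'⁻¹)⁻¹ ∈ lft 2 π (V φ j1))
    (PERF : V φ j1 ≤ ⁅V φ j1, P φ j1⁆)
    (H1 : ∀ z : L, π z = 1 → z * z = 1 → z ∈ ⁅(V φ j1).comap π, (P φ j1).comap π⁆)
    (hp4 : ∀ g : L, π g ∈ P φ j4 → π g ∉ V φ j4 → IsC g) (g : L) (h : π g ∈ P φ j1) (h1 : π g ∉ V φ j1) : IsC g := by
  obtain ⟨v, hv, l, hl, hg⟩ := exists_dec hF hφ h
  rw [← hf] at hl
  obtain ⟨x, rfl⟩ := hl
  have hx : x ∉ center (SU 6 F 2) := by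
    intro hx
    rw [← hfk] at hx
    apply h1
    rw [hg, MonoidHom.mem_ker.1 hx, mul_one]
    exact hv
  obtain ⟨s, hs, hm⟩ := MATCH3 g v hv x hg
  have hfs : f (x * s) = f x := by
    rw [map_mul, MonoidHom.mem_ker.1 (show s ∈ f.ker by rw [hfk]; exact hs), mul_one]
  have hxs : x * s ∉ center (SU 6 F 2) := by
    intro h2
    apply hx
    have := mul_mem h2 (inv_mem hs)
    rwa [mul_inv_cancel_right] at this
  have hF2 : Fintype.card F = 2 ^ 2 := hF
  rcases Cfsg.Agent.H259.U6.ore hF2 hxs with ⟨a, b, hab, hcl⟩ | ⟨w, hw, hw0, hT⟩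
  · obtain ⟨t, ht1, ht2, ht3, ht4, ht5⟩ := TSTAR
    obtain ⟨a', ha'⟩ := hπ.surj (f a)
    obtain ⟨b', hb'⟩ := hπ.surj (f b)
    have hc := hm a b a' b' hab ha' hb'
    have hfP : ∀ y, f y ∈ P φ j1 := fun y => LJ_le_PJ (show f y ∈ Lv φ j1 from hf ▸ ⟨y, rfl⟩)
    have htP : t ∈ (P φ j1).comap π := VJ_le_PJ (show π t ∈ V φ j1 from X_le_V ht1)
    let ρ : ↥((P φ j1).comap π) →* KK F := π.comp ((P φ j1).comap π).subtype
    have hρr : ρ.range = P φ j1 := by
      ext y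
      constructor
      · rintro ⟨z, rfl⟩
        exact z.2
      · intro hy
        obtain ⟨z, rfl⟩ := hπ.surj y
        exact ⟨⟨z, hy⟩, rfl⟩
    have hV2 : IsPGroup 2 (V φ j1) := IsPGroup.of_card K6.2.2.2
    have hρc : ρ.ker ≤ center ↥((P φ j1).comap π) := by
      intro z hz
      rw [mem_center_iff]
      intro y
      exact Subtype.ext (hπ.comm (z := z.1) hz y.1).symm
    have hl : ∀ y : ↥((P φ j1).comap π), y ∈ lft 2 ρ (V φ j1) ↔ (y : L) ∈ lft 2 π (V φ j1) := by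
      intro y
      rw [mem_lft hρc hV2, mem_lft hπ.cen hV2]
      refine and_congr_right fun _ => exists_congr fun k => ?_
      rw [← Subgroup.coe_pow, OneMemClass.coe_eq_one]
    have hD : Dat ρ (V φ j1) (X φ th) ⟨t, htP⟩ :=
      { cen := hρc
        nor := fun y v hv => conj_V hF hφ y.2 hv
        le := by rw [hρr]; exact VJ_le_PJ
        pgr := hV2
        XV := fun _ => X_le_V
        Xt := by
          intro y hy
          by_cases h2 : y = 1
          · exact Or.inl h2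
          · exact Or.inr (X_th hφ hy ht1 h2 ht2)
        tX := ht1
        tne := ht2
        tsq := Subtype.ext ht3
        tcen := fun y => Subtype.ext (ht4 y y.2)
        comm := by
          intro y hy z hz
          rcases ht5 y ((hl y).1 hy) z ((hl z).1 hz) with e | e
          · exact Or.inl (Subtype.ext e)
          · exact Or.inr (Subtype.ext e)
        zsq := by
          rintro z hz ⟨k, hk2⟩
          exact Subtype.ext (ker_sq hF hπ hk z hz ⟨k, congrArg Subtype.val hk2⟩)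
        zcard := by
          intro Z hZ
          rw [Nat.card_congr (Z.equivMapOfInjective _ (Subgroup.subtype_injective _)).toEquiv]
          apply card_Z (π := π) hk
          rintro _ ⟨z, hz, rfl⟩
          exact ⟨(hZ z hz).1, congrArg Subtype.val (hZ z hz).2⟩
        sq := K6.2.1
        nd := K6.2.2.1
        perf := by rw [hρr]; exact PERF
        h1 := by
          intro z hz hz2
          have h2 := H1 z hz (congrArg Subtype.val hz2)
          have h3 : ⁅(V φ j1).comap π, (P φ j1).comap π⁆ ≤ (⁅(V φ j1).comap ρ, (⊤ : Subgroup _)⁆).map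
              ((P φ j1).comap π).subtype := by
            rw [Subgroup.map_commutator]
            refine Subgroup.commutator_mono ?_ ?_
            · intro y hy
              exact ⟨⟨y, VJ_le_PJ (show π y ∈ V φ j1 from hy)⟩, hy, rfl⟩
            · intro y hy
              exact ⟨⟨y, hy⟩, mem_top _, rfl⟩
          obtain ⟨z', hz', e⟩ := h3 h2
          have : z' = z := Subtype.ext e
          rwa [← this] }
    have hrk : 32 * Nat.card {y : KK F // y ∈ V φ j1 ∧ ρ ⟨g, h⟩ * y * (ρ ⟨g, h⟩)⁻¹ * y⁻¹ ∈ X φ th} ≤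
        Nat.card (V φ j1) := by
      refine le_trans (Nat.mul_le_mul_left 32 ?_) (K7 x hx)
      have key : ∀ y : {y : KK F // y ∈ V φ j1 ∧ ρ ⟨g, h⟩ * y * (ρ ⟨g, h⟩)⁻¹ * y⁻¹ ∈ X φ th},
          (y : KK F) ∈ V φ j1 ∧ f x * y * (f x)⁻¹ * (y : KK F)⁻¹ ∈ X φ th := by
        rintro ⟨y, hy, hy2⟩
        refine ⟨hy, ?_⟩
        have h2 : ρ ⟨g, h⟩ = v * f x := hg
        rw [h2] at hy2
        have h3 : f x * y * (f x)⁻¹ ∈ V φ j1 := conj_V hF hφ (hfP x) hy
        have h4 := K6.1 v hv _ h3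
        have e : f x * y * (f x)⁻¹ * y⁻¹ = (v * (f x * y * (f x)⁻¹) * v⁻¹ * (f x * y * (f x)⁻¹)⁻¹)⁻¹ *
            (v * f x * y * (v * f x)⁻¹ * y⁻¹) := by group
        rw [e]
        exact mul_mem (inv_mem h4) hy2
      have : Finite (KK F) := Finite.of_surjective π hπ.surj
      exact Nat.card_le_card_of_injective (fun y => ⟨y.1, key y⟩) fun y z hyz =>
        Subtype.ext (congrArg (fun w => w.1) hyz)
    obtain ⟨y, z, e⟩ := hD.main (a := ⟨a', (by show π a' ∈ P φ j1; rw [ha']; exact hfP a)⟩)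
      (b := ⟨b', (by show π b' ∈ P φ j1; rw [hb']; exact hfP b)⟩) (c := ⟨g, h⟩) (by
        intro y
        show π y.1 ∈ V φ j1 ⊔ closure {π a', π b'}
        obtain ⟨v', hv', l', hl', e⟩ := exists_dec hF hφ (show π y.1 ∈ P φ j1 from y.2)
        rw [e]
        refine mul_mem ((le_sup_left : V φ j1 ≤ _) hv') ((le_sup_right : closure {π a', π b'} ≤ _) ?_)
        rw [ha', hb']
        have e2 : ({f a, f b} : Set (KK F)) = f '' {a, b} := by
          rw [Set.image_insert_eq, Set.image_singleton]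
        rw [e2, ← MonoidHom.map_closure, hcl, ← MonoidHom.range_eq_map, hf]
        exact hl') ((hl _).2 hc) hrk
    exact ⟨y, z, congrArg Subtype.val e⟩
  · have h2 := K5 hF2 w hw hw0 v hv
    rw [← hT, hfs, ← hg] at h2
    obtain ⟨y, hy⟩ := h2
    exact of_conj hπ.surj (Q := fun y => y ∈ P φ j4 ∧ y ∉ V φ j4) (fun y hy => hp4 y hy.1 hy.2) hy

end P1

end Cfsg.Agent.H461.QF
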