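import Cfsg.Agent.H461.QF.P1
import Cfsg.Agent.H326.QF.TStar
import Cfsg.Agent.H434.QF.Match3
import Cfsg.Agent.H231.QF.HOne
import Cfsg.Agent.H259.QF.Perf
import Cfsg.Agent.H297.QF.Su
import Cfsg.Agent.H150.QF.KFive
import Cfsg.Agent.H594.QF.VOne
import Cfsg.Agent.H486.F4.KSeven
import Cfsg.Agent.H374.QF.ZThree

/-!
# S2491, row F4 = `²E₆(2)` : `P1`: all elements over `P_1 ∖ V_1` are commutators (helper461)
-/

set_option autoImplicit false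
set_option linter.unusedSectionVars false

namespace Cfsg.Agent.H461.QF

open Cfsg.Lie Subgroup
open Cfsg.Agent.H51.Mult (PCE)
open Cfsg.Agent.H777.Ore (AllC IsC)
open Cfsg.Agent.H231.QF

universe u v

variable {F : Type u} [Field F] [Fintype F] (hF : Fintype.card F = 4) {φ : F →+* F} (hφ : ∀ t, φ t = t ^ 2)
  {L : Type v} [Group L] [Finite L] {π : L →* KK F} (hπ : PCE π) (hk : Nat.card π.ker = 12)

include hF hφ hπ hk

/-- **P1**, from Z3 -/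
theorem p1_of_z3
    (Z3 : ∀ z : L, π z = 1 → z ^ 3 = 1 → z ∈ ⁅(Lv φ j1).comap π, (Lv φ j1).comap π⁆)
    (hp4 : ∀ g : L, π g ∈ P φ j4 → π g ∉ V φ j4 → IsC g) (g : L) (h : π g ∈ P φ j1) (h1 : π g ∉ V φ j1) : IsC g := by
  have hF2 : Fintype.card F = 2 ^ 2 := hF
  have hperf := Cfsg.Agent.H259.QF.perf hF hφ
  obtain ⟨f, hf, hfk, -, hT⟩ := Cfsg.Agent.H297.QF.Su.exists_su6_T hF hφ hF2
  exact p1_of hF hφ hπ hk f hf hfk
    (fun hF2' w hw h0 v hv => Cfsg.Agent.H150.QF.transvection_out hF hφ hf hfk (hF2 := hF2') hT w hw h0 v hv)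
    (Cfsg.Agent.H594.QF.V1_struct hF hφ) (fun h hh => Cfsg.Agent.H486.F4.rank_ge hF hφ hf hfk h hh) (Cfsg.Agent.H326.QF.tstar_lft_of hF hφ hπ hperf)
    (fun g v hv h hg => Cfsg.Agent.H434.QF.match3 hF hφ hπ hk hperf (fun z h1 h3 => Cfsg.Agent.H434.QF.z3_of Z3 z h1 h3)
      hf hfk g hv h hg)
    (Cfsg.Agent.H259.QF.V_le_comm hF hφ) (fun z hz hz2 => Cfsg.Agent.H231.QF.HOne.h1 hF hφ hπ z hz hz2) hp4 g h h1

/-- **P1** (the stub `p1`) -/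
theorem p1 (hp4 : ∀ g : L, π g ∈ P φ j4 → π g ∉ V φ j4 → IsC g)
    (g : L) (h : π g ∈ P φ j1) (h1 : π g ∉ V φ j1) : IsC g :=
  p1_of_z3 hF hφ hπ hk (fun z hz hz3 => Cfsg.Agent.H374.QF.ZThree.z3lev hF hφ hπ hk z hz hz3) hp4 g h h1

end Cfsg.Agent.H461.QF
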