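import Cfsg.Agent.H150.QF.EFive
import Cfsg.Agent.H594.QF.Cent

/-!
# Elements of order divisible by seven in the parabolic subgroup `{0, 2, 3}` of `²E₆(2)` (S2491, row F4, E7; helper461)

`card_P2` : `|P_2| = 315 * (3 * 2 ^ 36)`; `conj7` : subgroups of order seven of `P_2` are conjugate; `e7_of` : from T1 (helper903).
-/

set_option autoImplicit false
set_option linter.unusedSectionVars false
set_option linter.style.haveILetI false

namespace Cfsg.Agent.H461.QF.Seven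

open CoxeterSystem Cfsg.Agent.ChevalleyStructure.CoxeterGeom Cfsg.Agent.Tits.Roots Cfsg.Agent.Tits.Core
  Cfsg.Agent.Nodes Cfsg.Agent.Nodes.Reps Cfsg.Agent.Nodes.BNOf Cfsg.Agent.Nodes.RGDLib Cfsg.Agent.Nodes.Bruhat
  Cfsg.Agent.Nodes.OppDec Cfsg.Agent.Nodes.LeviDec Cfsg.Agent.Nodes.StabComb Cfsg.Agent.Nodes.Unique
open Cfsg.Lie Subgroup
open Cfsg.Agent.H231.QF
open Cfsg.Agent.LThreeTwE6.ParWords Cfsg.Agent.LThreeTwE6.ParBorel
open Cfsg.Agent.H150.QF (rgdK finite_WF conj_pair pt0 re_of)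
open Cfsg.Agent.TwoESix.LeviB
open Cfsg.Agent.TwoESix.LongWeyl

universe u

/-- the words in the letters `0, 2, 3` -/
def hL : List (List (Fin 4)) :=
  [[], [0], [2], [3], [0, 2], [0, 3], [2, 3], [3, 2], [2, 3, 2], [0, 2, 3], [0, 3, 2], [0, 2, 3, 2]]

/-- `w_j hL b = hL b'`, `j = 0, 2, 3` -/
def hN : List ℕ :=
  [1, 2, 3,
   0, 4, 5,
   4, 0, 7,
   5, 6, 0,
   2, 1, 10,
   3, 9, 1,
   9, 3, 8,
   10, 8, 2,
   11, 7, 6,
   6, 5, 11,
   7, 11, 4,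
   8, 10, 9]

theorem chk_h : chk [0, 2, 3] hL hN = true := by decide +kernel

theorem exists_h {l : List (Fin 4)} (hl : ∀ i ∈ l, i.val ∈ [0, 2, 3]) : ∃ l' ∈ hL, ∀ r, wpm l r = wpm l' r :=
  exists_of_chk chk_h (by decide +kernel) hl

theorem mem_h : ∀ l ∈ hL, ∀ i ∈ l, i.val ∈ [0, 2, 3] := by decide +kernel

theorem keys_h : (hL.map fun l => key (l.map Fin.val)).Nodup := by decide +kernel

theorem sum_h : (hL.map fun l => 2 ^ invN l.reverse).sum = 315 := sum_eq _ _ (by decide +kernel)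

section

variable {F : Type u} [Field F] [Fintype F] {φ : F →+* F} (hF : Fintype.card F = 4) (hφ : ∀ t, φ t = t ^ 2)

include hF hφ

theorem card_P2 : Nat.card (P φ j2) = 315 * (3 * 2 ^ 36) := by
  have h0 : ∀ i : Fin 4, i.val ∈ [0, 2, 3] ↔ i ∈ (j2 : Set (Fin 4)) := by
    intro i
    change i.val ∈ [0, 2, 3] ↔ i ≠ 1
    revert i
    decide
  exact card_PJ (Cfsg.Agent.H297.QF.Su.four hF hφ) (L := hL) (fun l hl i hi => (h0 i).1 (mem_h l hl i hi))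
      (fun l hl => exists_h fun i hi => (h0 i).2 (hl i hi)) keys_h sum_h

/-- subgroups of order seven of `P_2` are conjugate -/
theorem conj7 {d d0 : KK F} (hd : d ∈ P φ j2) (h0 : d0 ∈ P φ j2) (h1 : orderOf d = 7) (h2 : orderOf d0 = 7) :
    ∃ p ∈ P φ j2, p⁻¹ * d * p ∈ zpowers d0 := by
  have := Cfsg.Agent.H150.QF.finite_KK (F := F)
  have : Fact (Nat.Prime 7) := ⟨by norm_num⟩
  have hle : zpowers d0 ≤ P φ j2 := by rwa [zpowers_le]
  have h3 : ¬ 7 ∣ (zpowers d0).relIndex (P φ j2) := by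
    intro h
    have h2' := Subgroup.relIndex_mul_relIndex ⊥ (zpowers d0) (P φ j2) bot_le hle
    rw [Subgroup.relIndex_bot_left, Subgroup.relIndex_bot_left, card_P2 hF hφ, Nat.card_zpowers, h2] at h2'
    obtain ⟨a, ha⟩ := h
    rw [ha] at h2'
    have h3 : 49 ∣ 315 * (3 * 2 ^ 36) := ⟨a, by rw [← h2']; ring⟩
    revert h3
    norm_num
  exact Cfsg.Agent.LThreeTwE6.Par.exists_conj_mem hd h1 h3

/-- the nontrivial elements of `X_1342 X_2342` are conjugate into `X_θ` -/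
theorem exists_conj {z : KK F} (hz : z ∈ X φ ![1, 3, 4, 2] ⊔ X φ ![2, 3, 4, 2]) : ∃ x, x * z * x⁻¹ ∈ X φ th := by
  have hr : ![1, 3, 4, 2] ∈ RGD.Pos cs RGDTwE6.isCartan := by
    have h1 := Cfsg.Agent.H150.QF.mem_prt.1 pt0.1
    exact ⟨h1.1, h1.2⟩
  have hc : ∀ y ∈ X φ ![1, 3, 4, 2], ∀ t ∈ X φ th, y * t = t * y := by
    intro y hy t ht
    by_cases h1 : t = 1
    · rw [h1, mul_one, one_mul]
    · have h2 : y ∈ centralizer ({t} : Set (KK F)) := by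
        rw [Cfsg.Agent.H594.QF.centralizer_eq hF hφ ht h1]
        exact B_le_PJ (RGD.X_le_B hr.1 hr.2 hy)
      exact (Subgroup.mem_centralizer_singleton_iff.1 h2)
  have hn : X φ ![1, 3, 4, 2] ≤ normalizer (X φ th : Set (KK F)) := by
    intro y hy
    rw [Subgroup.mem_normalizer_iff]
    intro t
    constructor
    · intro ht
      rw [hc y hy t ht, mul_inv_cancel_right]
      exact ht
    · intro ht
      have h1 := hc _ (inv_mem hy) _ ht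
      have h2 : t = y⁻¹ * (y * t * y⁻¹) * y := by group
      rw [h2, h1, mul_assoc, inv_mul_cancel, mul_one]
      exact ht
  have h1 : z ∈ ((X φ ![1, 3, 4, 2] ⊔ X φ th : Subgroup (KK F)) : Set (KK F)) := hz
  rw [Subgroup.coe_mul_of_left_le_normalizer_right _ _ hn, Set.mem_mul] at h1
  obtain ⟨y, hy, t, ht, rfl⟩ := h1
  obtain ⟨r, hr⟩ := conj_pair hF hφ pt0 hy ht
  exact ⟨_, hr⟩

/-- an element of `P_2` of order divisible by seven which commutes with a nontrivial element of `V_2`: the latter is conjugate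
into `X_θ` -/
theorem e7_conj
    (T1 : ∃ d0 : KK F, d0 ∈ P φ j2 ∧ orderOf d0 = 7 ∧ ∀ z ∈ V φ j2, d0 * z = z * d0 →
      z ∈ X φ ![1, 3, 4, 2] ⊔ X φ ![2, 3, 4, 2])
    {g z : KK F} (hg : g ∈ P φ j2) (hz : z ∈ V φ j2) (hgz : g * z = z * g)
    (h7 : 7 ∣ orderOf g) : ∃ x, x * z * x⁻¹ ∈ X φ th := by
  have := Cfsg.Agent.H150.QF.finite_KK (F := F)
  have : Fact (Nat.Prime 7) := ⟨by norm_num⟩
  have R := rgdK hF hφ
  obtain ⟨d0, hd0, ho0, hT⟩ := T1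
  have hg0 : orderOf g ≠ 0 := (orderOf_pos g).ne'
  obtain ⟨d, hd⟩ : ∃ d, d = g ^ (orderOf g / 7) := ⟨_, rfl⟩
  have hdo : orderOf d = 7 := by rw [hd]; exact orderOf_pow_orderOf_div hg0 h7
  have hdz : d * z = z * d := by rw [hd]; exact (Commute.pow_left hgz _)
  obtain ⟨p, hp, hpd⟩ := conj7 hF hφ (d := d) (d0 := d0) (by rw [hd]; exact pow_mem hg _) hd0 hdo ho0
  have hz' : p⁻¹ * z * p ∈ V φ j2 := by
    have := (Subgroup.mem_normalizer_iff.1 (PJ_le_normalizer_VJ R j2 (inv_mem hp)) z).1 hz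
    rwa [inv_inv] at this
  have hc : (p⁻¹ * d * p) * (p⁻¹ * z * p) = p⁻¹ * z * p * (p⁻¹ * d * p) := by
    calc p⁻¹ * d * p * (p⁻¹ * z * p) = p⁻¹ * (d * z) * p := by group
      _ = p⁻¹ * (z * d) * p := by rw [hdz]
      _ = _ := by group
  -- `d0` is a power of the conjugate
  have hd0' : d0 ∈ zpowers (p⁻¹ * d * p) := by
    have ho : orderOf (p⁻¹ * d * p) = 7 := by
      have e : p⁻¹ * d * p = MulAut.conj p⁻¹ d := by rw [MulAut.conj_apply, inv_inv]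
      rw [e, ← hdo]
      exact orderOf_injective (MulAut.conj p⁻¹).toMonoidHom (MulAut.conj p⁻¹).injective d
    have h1 : zpowers (p⁻¹ * d * p) ≤ zpowers d0 := by rwa [zpowers_le]
    have h2 : zpowers (p⁻¹ * d * p) = zpowers d0 :=
      Subgroup.eq_of_le_of_card_ge h1 (by rw [Nat.card_zpowers, Nat.card_zpowers, ho, ho0])
    rw [h2]
    exact mem_zpowers d0
  obtain ⟨m, hm⟩ := Subgroup.mem_zpowers_iff.1 hd0'
  have hc0 : d0 * (p⁻¹ * z * p) = p⁻¹ * z * p * d0 := by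
    rw [← hm]
    exact (Commute.zpow_left hc m)
  obtain ⟨x, hx⟩ := exists_conj hF hφ (hT _ hz' hc0)
  refine ⟨x * p⁻¹, ?_⟩
  have e : x * p⁻¹ * z * (x * p⁻¹)⁻¹ = x * (p⁻¹ * z * p) * x⁻¹ := by group
  rw [e]
  exact hx

/-- **E7** from T1 -/
theorem e7_of
    (T1 : ∃ d0 : KK F, d0 ∈ P φ j2 ∧ orderOf d0 = 7 ∧ ∀ z ∈ V φ j2, d0 * z = z * d0 →
      z ∈ X φ ![1, 3, 4, 2] ⊔ X φ ![2, 3, 4, 2])
    {g z : KK F} (hg : g ∈ P φ j2) (hz : z ∈ V φ j2) (hz1 : z ≠ 1) (hgz : g * z = z * g)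
    (h7 : 7 ∣ orderOf g) : CR g := by
  obtain ⟨x, hx⟩ := e7_conj hF hφ T1 hg hz hgz h7
  exact ⟨z, re_of hF hφ hx hz1, hgz⟩

/-- E7 with the conclusion `In φ j1 g` -/
theorem e7_in
    (T1 : ∃ d0 : KK F, d0 ∈ P φ j2 ∧ orderOf d0 = 7 ∧ ∀ z ∈ V φ j2, d0 * z = z * d0 →
      z ∈ X φ ![1, 3, 4, 2] ⊔ X φ ![2, 3, 4, 2])
    {g z : KK F} (hg : g ∈ P φ j2) (hz : z ∈ V φ j2) (hz1 : z ≠ 1) (hgz : g * z = z * g)
    (h7 : 7 ∣ orderOf g) : In φ j1 g := by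
  obtain ⟨x, hx⟩ := e7_conj hF hφ T1 hg hz hgz h7
  refine ⟨x, ?_⟩
  have h1 : x * z * x⁻¹ ≠ 1 := by
    intro h
    apply hz1
    calc z = x⁻¹ * (x * z * x⁻¹) * x := by group
      _ = 1 := by rw [h]; group
  rw [← Cfsg.Agent.H594.QF.centralizer_eq hF hφ hx h1, Subgroup.mem_centralizer_singleton_iff]
  calc x * g * x⁻¹ * (x * z * x⁻¹) = x * (g * z) * x⁻¹ := by group
    _ = x * (z * g) * x⁻¹ := by rw [hgz]
    _ = _ := by group

end

end Cfsg.Agent.H461.QF.Seven
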