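import Cfsg.Agent.H461.QF.Seven
import Cfsg.Agent.H903.QF.SevenC
import Cfsg.Agent.H374.QF.Desc
import Cfsg.Agent.H287.F4.DSeven

/-!
# S2491, row F4 = `²E₆(2)`, box E7

`t1` : an element of order `7` of `P₂` whose fixed points on `V₂` lie in the two highest root groups; `e7`.
-/

set_option autoImplicit false
set_option linter.unusedSectionVars false
set_option linter.unusedVariables false

namespace Cfsg.Agent.H461.QF.SevenMain

open CoxeterSystem Cfsg.Agent.ChevalleyStructure.CoxeterGeom Cfsg.Agent.Tits.Roots Cfsg.Agent.Tits.Core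
  Cfsg.Agent.Nodes Cfsg.Agent.Nodes.Reps Cfsg.Agent.Nodes.BNOf Cfsg.Agent.Nodes.RGDLib Cfsg.Agent.Nodes.Bruhat
  Cfsg.Agent.Nodes.OppDec Cfsg.Agent.Nodes.LeviDec Cfsg.Agent.Nodes.StabComb
open Cfsg.Lie Subgroup
open Cfsg.Agent.H231.QF (cs X V Lv P j1 j2 j3 j4 In Out CR Sm RE th)

universe u

/-- the group -/
local notation "YY" => Cfsg.Agent.H231.QF.KK

variable {F : Type u} [Field F] [Fintype F] (hF : Fintype.card F = 4) {φ : F →+* F} (hφ : ∀ t, φ t = t ^ 2)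

include hF hφ

theorem t1 : ∃ d0 ∈ P φ j2, orderOf d0 = 7 ∧
    ∀ z ∈ V φ j2, d0 * z = z * d0 → z ∈ X φ ![1, 3, 4, 2] ⊔ X φ ![2, 3, 4, 2] := by
  obtain ⟨d0, h1, h2⟩ := Cfsg.Agent.H287.F4.DSeven.exists_d0 hF hφ
  exact ⟨d0, h1, Cfsg.Agent.H903.QF.SevenC.T1_of hF (Cfsg.Agent.H374.QF.Desc.V2_le φ)
    (fun K' _ _ ι z hz => Cfsg.Agent.H374.QF.Desc.descent hF hφ ι hz) h2⟩

theorem e7 {g z : YY F} (hg : g ∈ P φ j2) (hz : z ∈ V φ j2) (hz1 : z ≠ 1) (hgz : g * z = z * g) (h7 : 7 ∣ orderOf g) :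
    CR g :=
  Seven.e7_of hF hφ (t1 hF hφ) hg hz hz1 hgz h7

end Cfsg.Agent.H461.QF.SevenMain
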